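import Mathlib

/-!
Weights of a commuting family of elements of order prime to the characteristic in a
representation; lower bounds for degrees in cross characteristic (Landazuri–Seitz method).
-/

set_option autoImplicit false

namespace H63.CrossChar

open Module Polynomial

theorem isSemisimple_of_pow_eq_one {L V : Type*} [Field L] [AddCommGroup V] [Module L V]
    {T : End L V} {N : ℕ} (hN : (N : L) ≠ 0) (hT : T ^ N = 1) : T.IsSemisimple := by
  refine End.isSemisimple_of_squarefree_aeval_eq_zero (p := X ^ N - C 1)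
    (separable_X_pow_sub_C 1 hN one_ne_zero).squarefree ?_
  simp [hT]

/-- The finite set of weights of a commuting family. -/
theorem exists_weights {L V G A : Type*} [Field L] [IsAlgClosed L] [AddCommGroup V] [Module L V]
    [FiniteDimensional L V] [Group G] (ρ : G →* End L V) (x : A → G)
    (hcomm : ∀ a b, Commute (x a) (x b)) {N : ℕ} (hN : (N : L) ≠ 0) (hx : ∀ a, x a ^ N = 1) :
    ∃ Ω : Finset (A → L), Ω.card ≤ finrank L V ∧
      (∀ a, ρ (x a) ≠ 1 → ∃ χ ∈ Ω, χ a ≠ 1) ∧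
      (∀ χ ∈ Ω, (∀ a b c, x a * x b = x c → χ a * χ b = χ c) ∧ (∀ a, x a = 1 → χ a = 1)) ∧
      (∀ (g : G) (σ : A → A), (∀ a, x a * g = g * x (σ a)) → ∀ χ ∈ Ω, χ ∘ σ ∈ Ω) := by
  classical
  have hss : ∀ a, (ρ (x a)).IsSemisimple := fun a =>
    isSemisimple_of_pow_eq_one hN (by rw [← map_pow, hx, map_one])
  have heq : ∀ a μ, (ρ (x a)).maxGenEigenspace μ = (ρ (x a)).eigenspace μ := fun a μ =>
    (hss a).isFinitelySemisimple.maxGenEigenspace_eq_eigenspace μ
  have hc : ∀ a b, Commute (ρ (x a)) (ρ (x b)) := fun a b => (hcomm a b).map ρ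
  let wt : (A → L) → Submodule L V := fun χ => ⨅ a, (ρ (x a)).maxGenEigenspace (χ a)
  have hmem : ∀ χ v, v ∈ wt χ ↔ ∀ a, ρ (x a) v = χ a • v := fun χ v => by
    simp only [wt, Submodule.mem_iInf, heq, End.mem_eigenspace_iff]
  have htop : ⨆ χ, wt χ = ⊤ :=
    End.iSup_iInf_maxGenEigenspace_eq_top_of_iSup_maxGenEigenspace_eq_top_of_commute _
      (fun a b _ => hc a b) (fun a => End.iSup_maxGenEigenspace_eq_top _)
  have hind : iSupIndep wt := End.independent_iInf_maxGenEigenspace_of_forall_mapsTo _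
    (fun i j φ => End.mapsTo_maxGenEigenspace_of_comm (hc j i) φ)
  let _ : Fintype {χ // wt χ ≠ ⊥} := hind.fintypeNeBotOfFiniteDimensional
  have hΩ : ∀ χ, χ ∈ (Finset.univ : Finset {χ // wt χ ≠ ⊥}).map (Function.Embedding.subtype _) ↔
      ∃ v, v ≠ 0 ∧ ∀ a, ρ (x a) v = χ a • v := fun χ => by
    simp only [Finset.mem_map, Finset.mem_univ, true_and, Function.Embedding.coe_subtype,
      Subtype.exists, exists_prop, exists_eq_right, Submodule.ne_bot_iff, hmem]
    exact ⟨fun ⟨v, h1, h2⟩ => ⟨v, h2, h1⟩, fun ⟨v, h1, h2⟩ => ⟨v, h2, h1⟩⟩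
  refine ⟨(Finset.univ : Finset {χ // wt χ ≠ ⊥}).map (Function.Embedding.subtype _), ?_, ?_, ?_, ?_⟩
  · rw [Finset.card_map, Finset.card_univ]
    exact hind.subtype_ne_bot_le_finrank
  · intro a ha
    by_contra hcon
    push Not at hcon
    apply ha
    have : ⨆ χ, wt χ ≤ (ρ (x a)).eigenspace 1 := by
      refine iSup_le fun χ v hv => ?_
      by_cases hv0 : v = 0
      · rw [hv0]; exact Submodule.zero_mem _
      · rw [End.mem_eigenspace_iff, (hmem χ v).mp hv a, hcon χ ((hΩ χ).mpr ⟨v, hv0, (hmem χ v).mp hv⟩)]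
    ext v
    have hv := this (htop ▸ Submodule.mem_top (x := v))
    simpa [End.mem_eigenspace_iff] using hv
  · intro χ hχ
    obtain ⟨v, hv0, hv⟩ := (hΩ χ).mp hχ
    constructor
    · intro a b c habc
      have := hv c
      rw [← habc, map_mul, End.mul_apply, hv, map_smul, hv, smul_smul, mul_comm] at this
      exact smul_left_injective L hv0 this
    · intro a ha
      have := hv a
      rw [ha, map_one, End.one_apply] at this
      exact smul_left_injective L hv0 (this.symm.trans (one_smul L v).symm)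
  · intro g σ hg χ hχ
    obtain ⟨v, hv0, hv⟩ := (hΩ χ).mp hχ
    refine (hΩ _).mpr ⟨ρ g v, fun h => hv0 ?_, fun a => ?_⟩
    · have := congrArg (ρ g⁻¹) h
      rwa [← End.mul_apply, ← map_mul, inv_mul_cancel, map_one, End.one_apply, map_zero] at this
    · rw [← End.mul_apply, ← map_mul, hg, map_mul, End.mul_apply, hv, map_smul]; rfl

/-- The same for a matrix representation over an arbitrary field. -/
theorem exists_weights_matrix {K G A : Type*} [Field K] [Group G] {d : ℕ}
    (ρ : G →* Matrix (Fin d) (Fin d) K) (x : A → G)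
    (hcomm : ∀ a b, Commute (x a) (x b)) {N : ℕ} (hN : (N : K) ≠ 0) (hx : ∀ a, x a ^ N = 1) :
    ∃ Ω : Finset (A → AlgebraicClosure K), Ω.card ≤ d ∧
      (∀ a, ρ (x a) ≠ 1 → ∃ χ ∈ Ω, χ a ≠ 1) ∧
      (∀ χ ∈ Ω, (∀ a b c, x a * x b = x c → χ a * χ b = χ c) ∧ (∀ a, x a = 1 → χ a = 1)) ∧
      (∀ (g : G) (σ : A → A), (∀ a, x a * g = g * x (σ a)) → ∀ χ ∈ Ω, χ ∘ σ ∈ Ω) := by
  let L := AlgebraicClosure K
  let φ : Matrix (Fin d) (Fin d) K →+* End L (Fin d → L) :=
    (Matrix.toLinAlgEquiv' (R := L) (n := Fin d)).toRingEquiv.toRingHom.comp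
      (algebraMap K L).mapMatrix
  have hφ : Function.Injective φ :=
    (Matrix.toLinAlgEquiv' (R := L) (n := Fin d)).injective.comp
      (Matrix.map_injective (algebraMap K L).injective)
  have hN' : (N : L) ≠ 0 := by
    rw [← map_natCast (algebraMap K L)]; exact (_root_.map_ne_zero _).mpr hN
  obtain ⟨Ω, h1, h2, h3, h4⟩ := exists_weights (φ.toMonoidHom.comp ρ) x hcomm hN' hx
  refine ⟨Ω, by simpa using h1, fun a ha => h2 a fun h => ha (hφ ?_), h3, h4⟩
  rw [map_one]; exact h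

/-- Additive characters of a finite vector space are of the form `ψ ∘ φ` with `φ` linear. -/
theorem exists_dual_of_addChar {F L A : Type*} [Field F] [Finite F] [Field L] [AddCommGroup A]
    [Module F A] [Finite A] (ψ : F → L) (hψ0 : ψ 0 = 1) (hψ : ∀ a b, ψ (a + b) = ψ a * ψ b)
    (hψ1 : ψ 1 ≠ 1) :
    (Function.Injective fun φ : Dual F A => ψ ∘ φ) ∧
    ∀ χ : A → L, χ 0 = 1 → (∀ a b, χ (a + b) = χ a * χ b) → ∃ φ : Dual F A, χ = ψ ∘ φ := by
  classical
  have hinj : Function.Injective fun φ : Dual F A => ψ ∘ φ := by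
    intro φ φ' h
    by_contra hne
    obtain ⟨a, ha⟩ : ∃ a, (φ - φ') a ≠ 0 := by
      by_contra hcon
      push Not at hcon
      exact hne (sub_eq_zero.mp (LinearMap.ext hcon))
    have h1 : φ (((φ - φ') a)⁻¹ • a) = 1 + φ' (((φ - φ') a)⁻¹ • a) := by
      rw [← sub_eq_iff_eq_add, ← LinearMap.sub_apply, map_smul, smul_eq_mul, inv_mul_cancel₀ ha]
    have h2 := congrFun h (((φ - φ') a)⁻¹ • a)
    simp only [Function.comp_apply] at h2
    rw [h1, hψ] at h2
    have h3 : ψ (φ' (((φ - φ') a)⁻¹ • a)) ≠ 0 := fun h0 => by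
      have := hψ (φ' (((φ - φ') a)⁻¹ • a)) (-φ' (((φ - φ') a)⁻¹ • a))
      rw [add_neg_cancel, hψ0, h0, zero_mul] at this
      exact one_ne_zero this
    exact hψ1 (mul_right_cancel₀ h3 (h2.trans (one_mul _).symm))
  refine ⟨hinj, fun χ hχ0 hχ => ?_⟩
  let mk : ∀ χ : A → L, χ 0 = 1 → (∀ a b, χ (a + b) = χ a * χ b) → (Multiplicative A →* L) :=
    fun χ h0 h => { toFun := fun a => χ a.toAdd, map_one' := h0, map_mul' := fun a b => h _ _ }
  let f : Dual F A → (Multiplicative A →* L) := fun φ =>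
    mk (ψ ∘ φ) (by simp [hψ0]) (by simp [hψ])
  have hf : Function.Injective f := fun φ φ' h => hinj (by
    ext a; exact DFunLike.congr_fun h (Multiplicative.ofAdd a))
  have := Fintype.ofFinite A
  have hli := linearIndependent_monoidHom (Multiplicative A) L
  have : Finite (Multiplicative A →* L) := hli.finite
  have := Fintype.ofFinite (Multiplicative A →* L)
  have hcard : Nat.card (Multiplicative A →* L) ≤ Nat.card (Dual F A) := by
    have h1 := hli.fintype_card_le_finrank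
    rw [finrank_fintype_fun_eq_card, Fintype.card_multiplicative] at h1
    rw [Nat.card_eq_fintype_card, natCard_eq_pow_finrank (K := F) (V := Dual F A),
      Subspace.dual_finrank_eq, ← natCard_eq_pow_finrank, Nat.card_eq_fintype_card]
    exact h1
  obtain ⟨φ, hφ⟩ := (hf.bijective_of_nat_card_le hcard).2 (mk χ hχ0 hχ)
  exact ⟨φ, by ext a; exact (DFunLike.congr_fun hφ (Multiplicative.ofAdd a)).symm⟩

/-- **Landazuri–Seitz lemma**, linear form: the weights of an `F`-vector space `A` of elements of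
`G` are parametrised by a set `Φ` of at most `d` linear functionals on `A`. -/
theorem exists_functionals {F K G A : Type*} [Field F] [Finite F] [Field K] [Group G]
    [AddCommGroup A] [Module F A] [Finite A] (hK : ringChar K ≠ ringChar F) {d : ℕ}
    (ρ : G →* Matrix (Fin d) (Fin d) K) (x : A → G) (hx : ∀ a b, x (a + b) = x a * x b)
    (hne : ∃ a, ρ (x a) ≠ 1) :
    ∃ Φ : Finset (Dual F A), Φ.card ≤ d ∧ (∃ φ ∈ Φ, φ ≠ 0) ∧
      ∀ (g : G) (σ : A →ₗ[F] A), (∀ a, x a * g = g * x (σ a)) → ∀ φ ∈ Φ, φ ∘ₗ σ ∈ Φ := by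
  classical
  have hp : (ringChar F).Prime := CharP.char_is_prime F _
  have hN : ((ringChar F : ℕ) : K) ≠ 0 := fun h => by
    rcases (Nat.dvd_prime hp).mp ((ringChar.spec K _).mp h) with h1 | h1
    · exact CharP.ringChar_ne_one h1
    · exact hK h1
  have hx0 : x 0 = 1 := by
    have := hx 0 0
    rw [add_zero] at this
    exact left_eq_mul.mp this
  have hxn : ∀ (k : ℕ) a, x (k • a) = x a ^ k := fun k a => by
    induction k with
    | zero => simp [hx0]
    | succ k ih => rw [succ_nsmul, hx, ih, pow_succ]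
  obtain ⟨Ω, h1, h2, h3, h4⟩ := exists_weights_matrix ρ x
    (fun a b => by rw [Commute, SemiconjBy, ← hx, ← hx, add_comm]) hN
    (fun a => by rw [← hxn, ← Nat.cast_smul_eq_nsmul F, ringChar.Nat.cast_ringChar, zero_smul, hx0])
  obtain ⟨a0, ha0⟩ := hne
  obtain ⟨χ0, hχ0, hχa⟩ := h2 a0 ha0
  obtain ⟨hinj, hsurj⟩ := exists_dual_of_addChar (A := A) (fun t : F => χ0 (t • a0))
    (by simpa using (h3 χ0 hχ0).2 0 hx0)
    (fun a b => by rw [add_smul]; exact ((h3 χ0 hχ0).1 _ _ _ (hx _ _).symm).symm)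
    (by simpa using hχa)
  refine ⟨Ω.preimage _ hinj.injOn, ?_, ?_, ?_⟩
  · refine le_trans ?_ h1
    rw [Finset.card_preimage]
    exact Finset.card_filter_le _ _
  · obtain ⟨φ, hφ⟩ := hsurj χ0 ((h3 χ0 hχ0).2 0 hx0)
      (fun a b => ((h3 χ0 hχ0).1 _ _ _ (hx _ _).symm).symm)
    refine ⟨φ, Finset.mem_preimage.mpr (hφ ▸ hχ0), fun h0 => hχa ?_⟩
    have := congrFun hφ a0
    rw [this, h0]
    simpa using (h3 χ0 hχ0).2 0 hx0
  · intro g σ hg φ hφ
    rw [Finset.mem_preimage] at hφ ⊢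
    exact h4 g σ hg _ hφ

end H63.CrossChar
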