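import Mathlib
import Cfsg.Agent.Lib.CrossChar.Weights
import Cfsg.Agent.Lib.ClGeo.Transv
import Cfsg.Agent.Lib.Cls63.Embed

/-!
The Landazuri–Seitz bound `(q ^ n - 1) / 2` for `Sp_{2n}(q)`, `q` odd, via the Siegel unipotent
radical.
-/

set_option autoImplicit false

namespace H63.CrossChar

open Matrix Module

variable {F : Type*} [Field F] {ι : Type*} [Fintype ι] [DecidableEq ι]

/-- `SL` is transitive on pairs (vector, functional) with a given non-zero pairing. -/
theorem exists_SL_pair_of_ne_zero (hι : 2 ≤ Fintype.card ι) {u w m l : ι → F}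
    (hm : m ⬝ᵥ u = l ⬝ᵥ w) (hl : l ⬝ᵥ w ≠ 0) :
    ∃ g : Matrix.SpecialLinearGroup ι F, (g : Matrix ι ι F) *ᵥ u = w ∧ l ᵥ* (g : Matrix ι ι F) = m := by
  have hu : u ≠ 0 := by rintro rfl; rw [← hm] at hl; simp at hl
  have hw : w ≠ 0 := by rintro rfl; simp at hl
  obtain ⟨g, hg⟩ := H30.exists_SL_mulVec_eq hι hu hw
  set c := l ⬝ᵥ w with hc
  have h1 : (l ᵥ* (g : Matrix ι ι F)) ⬝ᵥ u = c := by rw [← dotProduct_mulVec, hg]
  have h2 : (c⁻¹ • (m - l ᵥ* (g : Matrix ι ι F))) ⬝ᵥ u = 0 := by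
    rw [smul_dotProduct, sub_dotProduct, h1, hm, sub_self, smul_zero]
  let t : Matrix.SpecialLinearGroup ι F :=
    ⟨1 + vecMulVec u (c⁻¹ • (m - l ᵥ* (g : Matrix ι ι F))), by
      rw [vecMulVec_eq Unit, det_one_add_replicateCol_mul_replicateRow, h2, add_zero]⟩
  have ht : (t : Matrix ι ι F) = 1 + vecMulVec u (c⁻¹ • (m - l ᵥ* (g : Matrix ι ι F))) := rfl
  refine ⟨g * t, ?_, ?_⟩
  · rw [Matrix.SpecialLinearGroup.coe_mul, ← mulVec_mulVec, ht, add_mulVec, one_mulVec,
      vecMulVec_mulVec, h2]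
    simpa using hg
  · rw [Matrix.SpecialLinearGroup.coe_mul, ← vecMul_vecMul, ht, vecMul_add, vecMul_one,
      vecMul_vecMulVec, h1, smul_smul, mul_inv_cancel₀ hl, one_smul, add_sub_cancel]

theorem card_filter_dot_ne_zero [Fintype F] [DecidableEq F] {w : ι → F} (hw : w ≠ 0) :
    (Finset.univ.filter fun m : ι → F => m ⬝ᵥ w ≠ 0).card + Fintype.card F ^ (Fintype.card ι - 1) =
      Fintype.card F ^ Fintype.card ι := by
  have h1 := Finset.card_filter_add_card_filter_not (s := (Finset.univ : Finset (ι → F)))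
    (fun m : ι → F => m ⬝ᵥ w ≠ 0)
  rw [Finset.card_univ, Fintype.card_fun] at h1
  rw [← h1]
  congr 1
  let φ : (ι → F) →ₗ[F] F := dotProductEquiv F ι w
  have hφ : φ ≠ 0 := fun h => hw ((dotProductEquiv F ι).map_eq_zero_iff.mp h)
  have h2 := Module.Dual.finrank_ker_add_one_of_ne_zero hφ
  rw [finrank_fintype_fun_eq_card] at h2
  have h3 : Nat.card (LinearMap.ker φ) = Fintype.card F ^ (Fintype.card ι - 1) := by
    rw [natCard_eq_pow_finrank (K := F), Nat.card_eq_fintype_card, ← h2]; rfl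
  rw [← h3, ← Fintype.card_subtype, ← Nat.card_eq_fintype_card]
  refine Nat.card_congr (Equiv.subtypeEquivRight fun m => ?_)
  simp [φ, dotProduct_comm]

theorem eq_or_eq_neg_of_mul_eq_zero {a b : ι → F} (h : ∀ v, (a ⬝ᵥ v) * (b ⬝ᵥ v) = 0) :
    a = 0 ∨ b = 0 := by
  by_contra hc
  push Not at hc
  obtain ⟨i, hi⟩ := Function.ne_iff.mp hc.1
  obtain ⟨j, hj⟩ := Function.ne_iff.mp hc.2
  have h1 := h (Pi.single i 1)
  have h2 := h (Pi.single j 1)
  have h3 := h (Pi.single i 1 + Pi.single j 1)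
  simp only [dotProduct_add, dotProduct_single, mul_one, mul_eq_zero, Pi.zero_apply] at h1 h2 h3 hi hj
  rw [h1.resolve_left hi, h2.resolve_right hj] at h3
  simp [hi, hj] at h3

/-- every `SL`-orbit on non-zero symmetric matrices has at least `(q ^ n - 1) / 2` elements -/
theorem card_symm_orbit [Fintype F] (h2 : (2 : F) ≠ 0) (hι : 2 ≤ Fintype.card ι)
    {B : Matrix ι ι F} (hB : Bᵀ = B) (hB0 : B ≠ 0) (Ψ : Finset (Matrix ι ι F))
    (hΨ : ∀ g : Matrix.SpecialLinearGroup ι F, (g : Matrix ι ι F)ᵀ * B * g ∈ Ψ) :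
    Fintype.card F ^ Fintype.card ι - 1 ≤ 2 * Ψ.card := by
  classical
  have hsymm : ∀ u v : ι → F, u ⬝ᵥ B *ᵥ v = v ⬝ᵥ B *ᵥ u := fun u v => by
    rw [dotProduct_mulVec, ← hB, vecMul_transpose, hB, dotProduct_comm]
  obtain ⟨w, hw⟩ : ∃ w : ι → F, w ⬝ᵥ B *ᵥ w ≠ 0 := by
    by_contra hc
    push Not at hc
    apply hB0
    ext i j
    have h1 := hc (Pi.single i 1 + Pi.single j 1)
    rw [mulVec_add, add_dotProduct, dotProduct_add, dotProduct_add, hc, hc,
      hsymm (Pi.single j 1)] at h1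
    have h3 : 2 * (Pi.single i 1 ⬝ᵥ B *ᵥ Pi.single j 1) = 0 := by linear_combination h1
    simpa [h2] using h3
  have hw0 : w ≠ 0 := by rintro rfl; simp at hw
  set c := w ⬝ᵥ B *ᵥ w with hc
  by_cases hr : ∀ v : ι → F, c * (v ⬝ᵥ B *ᵥ v) = (v ⬝ᵥ B *ᵥ w) ^ 2
  · -- rank one
    have hBw : B *ᵥ w ≠ 0 := fun h => hw (by rw [hc, h, dotProduct_zero])
    have key : ∀ m ∈ Finset.univ.erase (0 : ι → F), ∃ R ∈ Ψ, ∀ v, c * (v ⬝ᵥ R *ᵥ v) = (m ⬝ᵥ v) ^ 2 := by
      intro m hm
      obtain ⟨g, hg⟩ := H30.exists_SL_vecMul_eq hι hBw (Finset.ne_of_mem_erase hm)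
      refine ⟨_, hΨ g, fun v => ?_⟩
      rw [← hg, ← dotProduct_mulVec, dotProduct_comm (B *ᵥ w), ← hr, ← mulVec_mulVec,
        ← mulVec_mulVec, dotProduct_mulVec v, vecMul_transpose]
    choose! R hR hR' using key
    have := Finset.card_le_mul_card_image_of_maps_to hR 2 (fun S _ => by
      by_cases hne : ((Finset.univ.erase (0 : ι → F)).filter fun m => R m = S).Nonempty
      · obtain ⟨m, hm⟩ := hne
        rw [Finset.mem_filter] at hm
        refine le_trans (Finset.card_le_card (t := {m, -m}) fun m' hm' => ?_) Finset.card_le_two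
        rw [Finset.mem_filter] at hm'
        have := eq_or_eq_neg_of_mul_eq_zero (a := m' - m) (b := m' + m) fun v => by
          have e1 := hR' m hm.1 v
          have e2 := hR' m' hm'.1 v
          rw [hm.2] at e1; rw [hm'.2] at e2
          rw [sub_dotProduct, add_dotProduct]
          linear_combination e1 - e2
        simp only [Finset.mem_insert, Finset.mem_singleton]
        exact this.imp sub_eq_zero.mp eq_neg_of_add_eq_zero_left
      · rw [Finset.not_nonempty_iff_eq_empty.mp hne]; simp)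
    rwa [Finset.card_erase_of_mem (Finset.mem_univ _), Finset.card_univ, Fintype.card_fun] at this
  · -- rank at least two
    push Not at hr
    obtain ⟨v, hv⟩ := hr
    let u := c • v - (v ⬝ᵥ B *ᵥ w) • w
    have huw : u ⬝ᵥ B *ᵥ w = 0 := by
      simp only [u, sub_dotProduct, smul_dotProduct, smul_eq_mul, ← hc]; ring
    have huu : u ⬝ᵥ B *ᵥ u ≠ 0 := by
      have : u ⬝ᵥ B *ᵥ u = c * (c * (v ⬝ᵥ B *ᵥ v) - (v ⬝ᵥ B *ᵥ w) ^ 2) := by
        simp only [u, sub_dotProduct, smul_dotProduct, smul_eq_mul, mulVec_sub, mulVec_smul,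
          dotProduct_sub, dotProduct_smul, ← hc, hsymm w v]; ring
      rw [this]; exact mul_ne_zero hw (sub_ne_zero.mpr hv)
    have hodd : Fintype.card F % 2 = 1 := by
      apply FiniteField.odd_card_of_char_ne_two
      intro h
      apply h2
      have := ringChar.Nat.cast_ringChar (R := F)
      rw [h] at this
      exact_mod_cast this
    have key : ∀ m ∈ Finset.univ.filter (fun m : ι → F => m ⬝ᵥ w ≠ 0), ∃ R ∈ Ψ, R *ᵥ w = m := by
      intro m hm
      rw [Finset.mem_filter] at hm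
      obtain ⟨x, y, hxy⟩ := FiniteField.exists_root_sum_quadratic
        (f := Polynomial.C c * Polynomial.X ^ 2)
        (g := Polynomial.C (u ⬝ᵥ B *ᵥ u) * Polynomial.X ^ 2 - Polynomial.C (m ⬝ᵥ w))
        (Polynomial.degree_C_mul_X_pow 2 hw) (by
          rw [Polynomial.degree_sub_C, Polynomial.degree_C_mul_X_pow 2 huu]; · rfl
          rw [Polynomial.degree_C_mul_X_pow 2 huu]; decide) hodd
      have hw' : (B *ᵥ (x • w + y • u)) ⬝ᵥ (x • w + y • u) = m ⬝ᵥ w := by
        rw [dotProduct_comm]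
        simp only [add_dotProduct, smul_dotProduct, mulVec_add, mulVec_smul, dotProduct_add,
          dotProduct_smul, smul_eq_mul, ← hc, huw, hsymm w u]
        simp at hxy
        linear_combination hxy
      obtain ⟨g, hg1, hg2⟩ := exists_SL_pair_of_ne_zero hι hw'.symm (hw' ▸ hm.2)
      refine ⟨_, hΨ g, ?_⟩
      rw [← mulVec_mulVec, ← mulVec_mulVec, hg1, mulVec_transpose, hg2]
    choose! R hR hR' using key
    have h1 := Finset.card_le_card_of_injOn R hR fun m hm m' hm' h => by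
      rw [← hR' m hm, ← hR' m' hm', h]
    have h3 := card_filter_dot_ne_zero (F := F) hw0
    obtain ⟨k, hk⟩ : ∃ k, Fintype.card ι = k + 1 := ⟨Fintype.card ι - 1, by omega⟩
    rw [hk] at h3 ⊢
    simp only [Nat.add_sub_cancel, pow_succ] at h3 ⊢
    have h4 : 2 ≤ Fintype.card F := Fintype.one_lt_card
    have h5 := Nat.mul_le_mul_left (Fintype.card F ^ k) h4
    omega

/-- the space of symmetric matrices -/
def symmSub (ι F : Type*) [Field F] : Submodule F (Matrix ι ι F) where
  carrier := {S | Sᵀ = S}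
  add_mem' {a b} ha hb := by
    simp only [Set.mem_ofPred_eq] at ha hb ⊢; rw [transpose_add, ha, hb]
  zero_mem' := transpose_zero
  smul_mem' c S hS := by simp only [Set.mem_ofPred_eq] at hS ⊢; rw [transpose_smul, hS]

/-- the Siegel unipotent elements -/
def siegel (S : symmSub ι F) : symplecticGroup ι F :=
  ⟨fromBlocks 1 S.1 0 1, by
    have hS : S.1ᵀ = S.1 := S.2
    rw [SymplecticGroup.mem_iff, J, fromBlocks_transpose, fromBlocks_multiply,
      fromBlocks_multiply]
    simp [hS]⟩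

theorem coe_siegel (S : symmSub ι F) :
    (siegel S : Matrix (ι ⊕ ι) (ι ⊕ ι) F) = fromBlocks 1 S.1 0 1 := rfl

/-- **Landazuri–Seitz bound for the symplectic groups in odd characteristic.** -/
theorem sp_bound [Fintype F] (h2 : (2 : F) ≠ 0) (hι : 2 ≤ Fintype.card ι) {K : Type*} [Field K]
    (hK : ringChar K ≠ ringChar F) {d : ℕ} (ρ : symplecticGroup ι F →* Matrix (Fin d) (Fin d) K)
    (hne : ∃ S, ρ (siegel S) ≠ 1) : Fintype.card F ^ Fintype.card ι - 1 ≤ 2 * d := by
  classical
  have : Finite (Matrix ι ι F) := inferInstanceAs (Finite (ι → ι → F))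
  obtain ⟨Φ, h1, ⟨φ, hφ, hφ0⟩, h3⟩ := exists_functionals (F := F) (A := symmSub ι F) hK ρ
    siegel (fun a b => Subtype.ext (by
      rw [Submonoid.coe_mul, coe_siegel, coe_siegel, coe_siegel, fromBlocks_multiply]
      simp [add_comm])) hne
  let sy : (ι → F) → (ι → F) → symmSub ι F := fun u v =>
    ⟨vecMulVec u v + vecMulVec v u, by
      change _ᵀ = _
      rw [transpose_add, transpose_vecMulVec, transpose_vecMulVec, add_comm]⟩
  let M : Dual F (symmSub ι F) → Matrix ι ι F := fun ψ =>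
    Matrix.of fun i j => ψ (sy (Pi.single i 1) (Pi.single j 1))
  have hexp : ∀ (S : symmSub ι F), (2 : F) • S =
      ∑ i, ∑ j, S.1 i j • sy (Pi.single i 1) (Pi.single j 1) := fun S => by
    apply Subtype.ext
    ext a b
    have hS : S.1 b a = S.1 a b := congrFun (congrFun S.2 a) b
    simp [sy, Matrix.sum_apply, vecMulVec_apply, Pi.single_apply, Finset.sum_add_distrib,
      hS, two_mul]
  have hsy : ∀ u v, sy u v = ∑ i, ∑ j, (u i * v j) • sy (Pi.single i 1) (Pi.single j 1) :=
    fun u v => by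
    apply Subtype.ext
    ext a b
    simp [sy, Matrix.sum_apply, vecMulVec_apply, Pi.single_apply, Finset.sum_add_distrib,
      mul_comm]
  have hle := card_symm_orbit h2 hι (B := M φ) ?_ ?_ (Φ.image M) ?_
  · exact hle.trans (Nat.mul_le_mul_left 2 (Finset.card_image_le.trans h1))
  · ext i j
    simp only [M, transpose_apply, of_apply]
    congr 1
    exact Subtype.ext (add_comm _ _)
  · intro h0
    apply hφ0
    ext S
    have := congrArg φ (hexp S)
    simp only [map_smul, map_sum, smul_eq_mul] at this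
    have h4 : ∀ i j, φ (sy (Pi.single i 1) (Pi.single j 1)) = 0 := fun i j =>
      congrFun (congrFun h0 i) j
    simpa [h4, h2] using this
  · intro g
    let σ : symmSub ι F →ₗ[F] symmSub ι F :=
      { toFun := fun S => ⟨(g : Matrix ι ι F) * S.1 * (g : Matrix ι ι F)ᵀ, by
          change _ᵀ = _
          rw [transpose_mul, transpose_mul, transpose_transpose, S.2, Matrix.mul_assoc]⟩
        map_add' := fun a b => Subtype.ext (by simp [Matrix.mul_add, Matrix.add_mul])
        map_smul' := fun c a => Subtype.ext (by simp) }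
    have := h3 (H63.Emb.glToSp (Matrix.SpecialLinearGroup.toGL g)⁻¹) σ (fun S => Subtype.ext (by
      rw [Submonoid.coe_mul, Submonoid.coe_mul, coe_siegel, coe_siegel, H63.Emb.coe_glToSp,
        fromBlocks_multiply, fromBlocks_multiply, inv_inv]
      have e : (((Matrix.SpecialLinearGroup.toGL g)⁻¹ : GL ι F) : Matrix ι ι F) *
          (g : Matrix ι ι F) = 1 := (Matrix.SpecialLinearGroup.toGL g).inv_mul
      simp only [σ, LinearMap.coe_mk, AddHom.coe_mk, ← Matrix.mul_assoc, e]
      simp)) φ hφ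
    refine Finset.mem_image.mpr ⟨_, this, ?_⟩
    ext i j
    have e1 : σ (sy (Pi.single i 1) (Pi.single j 1)) =
        sy ((g : Matrix ι ι F) *ᵥ Pi.single i 1) ((g : Matrix ι ι F) *ᵥ Pi.single j 1) := by
      apply Subtype.ext
      simp only [σ, sy, LinearMap.coe_mk, AddHom.coe_mk, Matrix.mul_add, Matrix.add_mul,
        mul_vecMulVec, vecMulVec_mul, vecMul_transpose]
    simp only [M, of_apply, LinearMap.comp_apply, e1]
    rw [hsy]
    simp only [map_sum, map_smul, smul_eq_mul, Matrix.mul_apply, transpose_apply, of_apply,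
      mulVec_single_one, col_apply, Finset.sum_mul]
    rw [Finset.sum_comm]
    refine Finset.sum_congr rfl fun a _ => Finset.sum_congr rfl fun b _ => by ring

end H63.CrossChar
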